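import Mathlib.RingTheory.Kaehler.Basic
import Mathlib.RingTheory.TensorProduct.Basic
import Mathlib.RingTheory.TensorProduct.Quotient
import Mathlib.LinearAlgebra.TensorProduct.RightExactness
import Mathlib.LinearAlgebra.SymmetricAlgebra.Basic

set_option autoImplicit false
universe u
open scoped TensorProduct

namespace Groth.Agent.Ega4late.H510.SymPP

variable (A : Type u) [CommRing A] (E : Type u) [AddCommGroup E] [Module A E]

/-- Shorthand for the symmetric algebra. -/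
local notation "𝓢" => SymmetricAlgebra A E

/-- The map `B ⊗ B → B ⊗ B`, `b ⊗ 1 ↦ b ⊗ 1`, `1 ⊗ t ↦ t ⊗ 1 + 1 ⊗ t`. -/
noncomputable def shift : 𝓢 ⊗[A] 𝓢 →ₐ[𝓢] 𝓢 ⊗[A] 𝓢 :=
  Algebra.TensorProduct.lift (Algebra.ofId _ _)
    (SymmetricAlgebra.lift
      ((Algebra.TensorProduct.includeLeft (R := A) (S := A) (A := 𝓢) (B := 𝓢)).toLinearMap ∘ₗ
          SymmetricAlgebra.ι A E +
        (Algebra.TensorProduct.includeRight (R := A) (A := 𝓢) (B := 𝓢)).toLinearMap ∘ₗ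
          SymmetricAlgebra.ι A E))
    (fun _ _ => Commute.all _ _)

/-- The inverse map `b ⊗ 1 ↦ b ⊗ 1`, `1 ⊗ t ↦ 1 ⊗ t - t ⊗ 1`. -/
noncomputable def unshift : 𝓢 ⊗[A] 𝓢 →ₐ[𝓢] 𝓢 ⊗[A] 𝓢 :=
  Algebra.TensorProduct.lift (Algebra.ofId _ _)
    (SymmetricAlgebra.lift
      ((Algebra.TensorProduct.includeRight (R := A) (A := 𝓢) (B := 𝓢)).toLinearMap ∘ₗ
          SymmetricAlgebra.ι A E -
        (Algebra.TensorProduct.includeLeft (R := A) (S := A) (A := 𝓢) (B := 𝓢)).toLinearMap ∘ₗ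
          SymmetricAlgebra.ι A E))
    (fun _ _ => Commute.all _ _)

variable {E}

theorem shift_tmul_one (b : 𝓢) : shift A E (b ⊗ₜ[A] 1) = b ⊗ₜ[A] 1 := by
  have : (b ⊗ₜ[A] (1 : 𝓢)) = algebraMap 𝓢 (𝓢 ⊗[A] 𝓢) b := rfl
  rw [this, AlgHom.commutes]

theorem unshift_tmul_one (b : 𝓢) : unshift A E (b ⊗ₜ[A] 1) = b ⊗ₜ[A] 1 := by
  have : (b ⊗ₜ[A] (1 : 𝓢)) = algebraMap 𝓢 (𝓢 ⊗[A] 𝓢) b := rfl
  rw [this, AlgHom.commutes]

theorem shift_one_tmul_ι (t : E) :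
    shift A E (1 ⊗ₜ[A] SymmetricAlgebra.ι A E t) =
      SymmetricAlgebra.ι A E t ⊗ₜ[A] 1 + 1 ⊗ₜ[A] SymmetricAlgebra.ι A E t := by
  simp [shift, ← Algebra.TensorProduct.one_def]

theorem unshift_one_tmul_ι (t : E) :
    unshift A E (1 ⊗ₜ[A] SymmetricAlgebra.ι A E t) =
      1 ⊗ₜ[A] SymmetricAlgebra.ι A E t - SymmetricAlgebra.ι A E t ⊗ₜ[A] 1 := by
  simp [unshift, ← Algebra.TensorProduct.one_def]

variable (E)

theorem shift_comp_unshift : (shift A E).comp (unshift A E) = AlgHom.id 𝓢 (𝓢 ⊗[A] 𝓢) := by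
  apply Algebra.TensorProduct.ext
  · ext
  · apply SymmetricAlgebra.algHom_ext
    ext t
    change shift A E (unshift A E (1 ⊗ₜ[A] SymmetricAlgebra.ι A E t)) =
      1 ⊗ₜ[A] SymmetricAlgebra.ι A E t
    rw [unshift_one_tmul_ι, map_sub, shift_one_tmul_ι, shift_tmul_one]
    abel

theorem unshift_comp_shift : (unshift A E).comp (shift A E) = AlgHom.id 𝓢 (𝓢 ⊗[A] 𝓢) := by
  apply Algebra.TensorProduct.ext
  · ext
  · apply SymmetricAlgebra.algHom_ext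
    ext t
    change unshift A E (shift A E (1 ⊗ₜ[A] SymmetricAlgebra.ι A E t)) =
      1 ⊗ₜ[A] SymmetricAlgebra.ι A E t
    rw [shift_one_tmul_ι, map_add, unshift_one_tmul_ι, unshift_tmul_one]
    abel

/-- The shift automorphism of `B ⊗ B`. -/
noncomputable def shiftEquiv : 𝓢 ⊗[A] 𝓢 ≃ₐ[𝓢] 𝓢 ⊗[A] 𝓢 :=
  AlgEquiv.ofAlgHom (shift A E) (unshift A E) (shift_comp_unshift A E) (unshift_comp_shift A E)

/-- The augmentation `B → A`. -/
noncomputable abbrev aug : 𝓢 →ₐ[A] A := SymmetricAlgebra.lift (0 : E →ₗ[A] A)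

/-- `B ⊗ aug` followed by `B ⊗ A = B`. -/
noncomputable def augRight : 𝓢 ⊗[A] 𝓢 →ₐ[𝓢] 𝓢 :=
  (Algebra.TensorProduct.rid A 𝓢 𝓢).toAlgHom.comp (Algebra.TensorProduct.map (AlgHom.id 𝓢 𝓢) (aug A E))

theorem augRight_comp_shift :
    (augRight A E).comp (shift A E) = Algebra.TensorProduct.lmul'' A (S := 𝓢) := by
  apply Algebra.TensorProduct.ext
  · ext
  · apply SymmetricAlgebra.algHom_ext
    ext t
    change augRight A E (shift A E (1 ⊗ₜ[A] SymmetricAlgebra.ι A E t)) =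
      Algebra.TensorProduct.lmul' A (1 ⊗ₜ[A] SymmetricAlgebra.ι A E t)
    rw [shift_one_tmul_ι, map_add, Algebra.TensorProduct.lmul'_apply_tmul]
    simp [augRight]

theorem aug_surjective : Function.Surjective (aug A E) := fun a =>
  ⟨algebraMap A _ a, by simp⟩

theorem ker_augRight : RingHom.ker (augRight A E) =
    (RingHom.ker (SymmetricAlgebra.lift (0 : E →ₗ[A] A))).map
      (Algebra.TensorProduct.includeRight : 𝓢 →ₐ[A] 𝓢 ⊗[A] 𝓢) := by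
  rw [← Algebra.TensorProduct.lTensor_ker (A := 𝓢) (aug A E) (aug_surjective A E)]
  ext x
  simp only [RingHom.mem_ker, augRight]
  change (Algebra.TensorProduct.rid A 𝓢 𝓢) (Algebra.TensorProduct.map (AlgHom.id 𝓢 𝓢) (aug A E) x) = 0 ↔ _
  rw [EmbeddingLike.map_eq_zero_iff]
  rfl

theorem comap_shift : (RingHom.ker (augRight A E)).comap (shift A E) = KaehlerDifferential.ideal A 𝓢 := by
  ext x
  rw [Ideal.mem_comap, RingHom.mem_ker, KaehlerDifferential.ideal, RingHom.mem_ker]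
  exact Eq.congr (DFunLike.congr_fun (augRight_comp_shift A E) x) rfl

theorem map_shiftEquiv : (KaehlerDifferential.ideal A 𝓢).map (shiftEquiv A E) =
    (RingHom.ker (SymmetricAlgebra.lift (0 : E →ₗ[A] A))).map
      (Algebra.TensorProduct.includeRight : 𝓢 →ₐ[A] 𝓢 ⊗[A] 𝓢) := by
  rw [← ker_augRight, ← comap_shift]
  exact Ideal.map_comap_of_surjective _ (shiftEquiv A E).surjective _

theorem map_shiftEquiv_pow (m : ℕ) : ((KaehlerDifferential.ideal A 𝓢) ^ m).map (shiftEquiv A E) =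
    (RingHom.ker (SymmetricAlgebra.lift (0 : E →ₗ[A] A)) ^ m).map
      (Algebra.TensorProduct.includeRight : 𝓢 →ₐ[A] 𝓢 ⊗[A] 𝓢) := by
  rw [Ideal.map_pow, Ideal.map_pow, map_shiftEquiv]

/-- The isomorphism of the milestone. -/
noncomputable def ppEquiv (m : ℕ) :
    ((𝓢 ⊗[A] 𝓢) ⧸ (KaehlerDifferential.ideal A 𝓢) ^ m) ≃ₐ[𝓢]
      𝓢 ⊗[A] (𝓢 ⧸ RingHom.ker (SymmetricAlgebra.lift (0 : E →ₗ[A] A)) ^ m) :=
  (Ideal.quotientEquivAlg _ _ (shiftEquiv A E) (map_shiftEquiv_pow A E m).symm).trans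
    (Algebra.TensorProduct.tensorQuotientEquiv (R := A) 𝓢 𝓢 𝓢
      (RingHom.ker (SymmetricAlgebra.lift (0 : E →ₗ[A] A)) ^ m)).symm

theorem ppEquiv_mk_ι (m : ℕ) (t : E) :
    ppEquiv A E m (Ideal.Quotient.mk _ (1 ⊗ₜ[A] SymmetricAlgebra.ι A E t)) =
      SymmetricAlgebra.ι A E t ⊗ₜ[A] 1 + 1 ⊗ₜ[A] Ideal.Quotient.mk _ (SymmetricAlgebra.ι A E t) := by
  have h : ppEquiv A E m (Ideal.Quotient.mk _ (1 ⊗ₜ[A] SymmetricAlgebra.ι A E t)) =
      (Algebra.TensorProduct.tensorQuotientEquiv (R := A) 𝓢 𝓢 𝓢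
      (RingHom.ker (SymmetricAlgebra.lift (0 : E →ₗ[A] A)) ^ m)).symm
        (Ideal.Quotient.mk _ (shift A E (1 ⊗ₜ[A] SymmetricAlgebra.ι A E t))) := rfl
  rw [h, shift_one_tmul_ι, map_add, map_add]
  rfl

end Groth.Agent.Ega4late.H510.SymPP
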